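import Cfsg.Agent.Lib.FrobSystem.Basic
import Cfsg.Agent.Lib.CIT.Zassenhaus
import Cfsg.Agent.Lib.MetacyclicP.CTI.Zassenhaus
import Cfsg.Agent.S0346

/-!
A non-soluble group with such a system is a simple CIT group with Sylow 2-subgroups meeting trivially.
-/

set_option autoImplicit false
set_option linter.style.haveILetI false

open Cfsg
open scoped Pointwise

namespace CfsgLib.FrobSystem

universe u

variable {G : Type u} [Group G] [Finite G] {F : Subgroup G → Subgroup G}

theorem two_dvd_card (hns : ¬ Group.IsSolvable G) : 2 ∣ Nat.card G := by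
  by_contra h
  exact hns (Cfsg.Agent.S0205.result (Nat.not_even_iff_odd.1 fun he => h he.two_dvd))

theorem tiSylow (hF : System F) (hns : ¬ Group.IsSolvable G) : CIT.TISylow G := by
  haveI : Fact (Nat.Prime 2) := ⟨Nat.prime_two⟩
  intro S S' hne
  obtain ⟨H, hL⟩ := exists_local hF hns S
  obtain ⟨⟨s, hs⟩, hs1⟩ := Subgroup.ne_bot_iff_exists_ne_one.1 hne
  have hs1' : s ≠ 1 := fun e => hs1 (Subtype.ext e)
  obtain ⟨z, hzS', hz, hzc⟩ :=
    CIT.exists_central_involution S' fun e => hs1' (Subgroup.mem_bot.1 (e ▸ hs.2))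
  have hzH : z ∈ H := hL.cent s (hL.le hs.1) hs1'
    (Subgroup.mem_centralizer_singleton_iff.2 (hzc s hs.2).symm)
  have hle : (S' : Subgroup G) ≤ (S : Subgroup G) := fun a ha =>
    CIT.mem_sylow_of_mem_normalizer S (hL.le_norm (hL.cent z hzH (Involutions.ne_one hz)
      (Subgroup.mem_centralizer_singleton_iff.2 (hzc a ha))))
      (S'.2.to_le (Subgroup.zpowers_le.2 ha))
  exact Sylow.ext (S'.3 S.2 hle)

theorem isNilpotent_centralizer (hF : System F) (hns : ¬ Group.IsSolvable G) {t : G}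
    (ht : orderOf t = 2) : Group.IsNilpotent (Subgroup.centralizer ({t} : Set G)) := by
  haveI : Fact (Nat.Prime 2) := ⟨Nat.prime_two⟩
  obtain ⟨S, hS⟩ := (CIT.isPGroup_zpowers_of_orderOf ht).exists_le_sylow
  obtain ⟨H, hL⟩ := exists_local hF hns S
  exact Cores.isNilpotent_of_le hL.nil
    (hL.cent t (hL.le (hS (Subgroup.mem_zpowers t))) (Involutions.ne_one ht))

theorem exists_simple_normal (hF : System F) (hns : ¬ Group.IsSolvable G) :
    ∃ T : Subgroup G, T.Normal ∧ IsSimpleGroup T ∧ ¬ Group.IsSolvable T := by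
  classical
  obtain ⟨T, ⟨hTn, hT1⟩, hTmin⟩ := Set.exists_min_image {T : Subgroup G | T.Normal ∧ T ≠ ⊥}
    (fun T => Nat.card T) (Set.toFinite _)
    ⟨⊤, inferInstance, fun h => hns (by
      haveI : Subsingleton G := (Nat.card_eq_one_iff_unique.1 (by
        rw [← Subgroup.card_top (G := G), h, Subgroup.card_bot])).1
      exact Group.isSolvable_of_comm fun a b => Subsingleton.elim _ _)⟩
  haveI := hTn
  have hTns : ¬ Group.IsSolvable T := fun h => hT1 (eq_bot_of_normal_solvable hF hns T h)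
  -- soluble normal subgroups of `T` are trivial
  have hrad : ∀ N : Subgroup T, N.Normal → Group.IsSolvable N → N = ⊥ := by
    intro N hN hs
    by_contra hN1
    obtain ⟨q, _, A, hAn, -, hAq, hA1, -⟩ := BGTypes.exists_normal_abelian_pGroup_le hN1
    haveI : Group.IsNilpotent ((pCore q T).map T.subtype) :=
      ((Cores.isPGroup_pCore q T).map T.subtype).isNilpotent
    have h := eq_bot_of_normal_solvable hF hns ((pCore q T).map T.subtype) inferInstance
    rw [Subgroup.map_eq_bot_iff_of_injective _ T.subtype_injective] at h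
    exact hA1 (le_bot_iff.1 (h ▸ Cores.le_pCore hAq))
  -- non-trivial normal subgroups of `T` have trivial centraliser
  have hcen : ∀ N : Subgroup T, N.Normal → N ≠ ⊥ → Subgroup.centralizer (N : Set T) = ⊥ := by
    intro N hN hN1
    have heven : 2 ∣ Nat.card N := by
      by_contra h
      exact hN1 (hrad N hN (Cfsg.Agent.S0205.result (Nat.not_even_iff_odd.1 fun he => h he.two_dvd)))
    haveI : Fact (Nat.Prime 2) := ⟨Nat.prime_two⟩
    obtain ⟨t, ht⟩ := exists_prime_orderOf_dvd_card' (G := N) 2 heven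
    haveI := isNilpotent_centralizer hF hns (t := ((t : T) : G))
      (by rw [Subgroup.orderOf_coe, Subgroup.orderOf_coe, ht])
    refine hrad _ inferInstance ?_
    refine Group.isSolvable_of_isSolvable_injective
      (f := ((T.subtype.comp (Subgroup.centralizer (N : Set T)).subtype).codRestrict
        (Subgroup.centralizer ({((t : T) : G)} : Set G)) fun x => ?_)) ?_
    · exact Subgroup.mem_centralizer_singleton_iff.2
        (congrArg Subtype.val (Subgroup.mem_centralizer_iff.1 x.2 (t : T) t.2)).symm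
    · intro x y e
      exact Subtype.ext (Subtype.ext (congrArg (fun w : Subgroup.centralizer ({((t : T) : G)} : Set G) =>
        (w : G)) e))
  haveI : Nontrivial T := (Subgroup.nontrivial_iff_ne_bot T).2 hT1
  obtain ⟨L, ⟨hLn, hL1⟩, hLmin⟩ := Set.exists_min_image {L : Subgroup T | L.Normal ∧ L ≠ ⊥}
    (fun L => Nat.card L) (Set.toFinite _) ⟨⊤, inferInstance, top_ne_bot⟩
  have hleast : ∀ N : Subgroup T, N.Normal → N ≠ ⊥ → L ≤ N := by
    intro N hN hN1
    by_cases hI : L ⊓ N = ⊥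
    · refine absurd (le_bot_iff.1 ((hcen L hLn hL1) ▸ ?_)) hN1
      exact fun x hx => Subgroup.mem_centralizer_iff.2 fun y hy =>
        Subgroup.commute_of_normal_of_disjoint L N hLn hN (disjoint_iff.2 hI) y x hy hx
    · have := Subgroup.eq_of_le_of_card_ge (inf_le_left : L ⊓ N ≤ L)
        (hLmin _ ⟨inferInstance, hI⟩)
      exact this ▸ inf_le_right
  haveI : L.Characteristic := Subgroup.characteristic_iff_le_map.2 fun φ =>
    hleast _ (hLn.map _ φ.surjective) (by
      rwa [Ne, Subgroup.map_eq_bot_iff_of_injective _ φ.injective])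
  haveI : (L.map T.subtype).Normal := Cores.normal_map_subtype T L
  have hLtop : L = ⊤ := by
    refine Subgroup.eq_top_of_le_card L ?_
    have h := hTmin (L.map T.subtype) ⟨inferInstance, by
      rwa [Ne, Subgroup.map_eq_bot_iff_of_injective _ T.subtype_injective]⟩
    rwa [Subgroup.card_map_of_injective T.subtype_injective] at h
  refine ⟨T, hTn, ⟨fun N hN => ?_⟩, hTns⟩
  by_cases hN1 : N = ⊥
  · exact Or.inl hN1
  · exact Or.inr (top_le_iff.1 (hLtop ▸ hleast N hN hN1))

/-- In a simple normal subgroup the attached nilpotent subgroup is a Sylow 2-subgroup. -/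
theorem isPGroup_inf {T : Subgroup G} [IsSimpleGroup T] (hTns : ¬ Group.IsSolvable T) (P : Sylow 2 T)
    (H : Subgroup T) (hH : Group.IsNilpotent H) (hPH : (P : Subgroup T) ≤ H)
    (hcl : ∀ a ∈ H, a ≠ 1 → Subgroup.centralizer ({a} : Set T) ≤ H) : IsPGroup 2 H := by
  classical
  haveI : Fact (Nat.Prime 2) := ⟨Nat.prime_two⟩
  have h2 : 2 ∣ Nat.card H :=
    ((P.dvd_card_of_dvd_card (two_dvd_card hTns))).trans (Subgroup.card_dvd_of_le hPH)
  by_cases hpp : IsPrimePow (Nat.card H)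
  · obtain ⟨p, k, hp, hk, hpk⟩ := hpp
    have hp2 : p = 2 := ((Nat.prime_dvd_prime_iff_eq Nat.prime_two hp.nat_prime).1
      (Nat.prime_two.dvd_of_dvd_pow (hpk ▸ h2))).symm
    exact IsPGroup.of_card (n := k) (by rw [← hpk, hp2])
  exfalso
  obtain ⟨z, hzH, hz, hzc⟩ := BGTypes.exists_central_orderOf hH Nat.prime_two h2
  have hz1 : z ≠ 1 := fun e => by rw [e, orderOf_one] at hz; omega
  have S : MetacyclicP.CTI.Setting H z :=
    ⟨hH, hcl, hz, le_antisymm (hcl z hzH hz1) fun a ha =>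
        Subgroup.mem_centralizer_singleton_iff.2 (hzc a ha),
      Nat.not_even_iff_odd.1 fun he => P.not_dvd_index (he.two_dvd.trans (Subgroup.index_dvd_of_le hPH)),
      hTns, fun K hK => Cfsg.Agent.S0205.result hK⟩
  letI : Fintype (T ⧸ Subgroup.normalizer (H : Set T)) := Fintype.ofFinite _
  have hp := Cfsg.Agent.S0346.result S.isZassenhaus
  refine hpp ?_
  obtain ⟨b, hb⟩ := S.exists_ne_base
  let f : H → {c : T ⧸ Subgroup.normalizer (H : Set T) // c ≠ ((1 : T) : T ⧸ Subgroup.normalizer (H : Set T))} :=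
    fun τ => ⟨(τ : T) • b, fun e => hb (MulAction.injective (τ : T) (e.trans
      (MetacyclicP.CTI.smul_o_eq.2 (Subgroup.le_normalizer τ.2)).symm))⟩
  have hf : Function.Bijective f := by
    refine ⟨fun a c e => ?_, fun c => ?_⟩
    · exact (S.regular hb (f a).2).unique (y₁ := a) rfl (congrArg Subtype.val e).symm
    · obtain ⟨τ, hτ, -⟩ := S.regular hb c.2
      exact ⟨τ, Subtype.ext hτ⟩
  rw [Nat.card_eq_of_bijective f hf, Nat.card_eq_fintype_card, Fintype.card_subtype_compl,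
    Fintype.card_subtype_eq]
  exact hp

theorem simple_cit (hF : System F) (hns : ¬ Group.IsSolvable G) : IsSimpleGroup G ∧ CIT.IsCIT G := by
  classical
  haveI : Fact (Nat.Prime 2) := ⟨Nat.prime_two⟩
  obtain ⟨T, hTn, hTs, hTns⟩ := exists_simple_normal hF hns
  haveI := hTn
  haveI := hTs
  have hTI := tiSylow hF hns
  have hT2 := two_dvd_card hTns
  have hnaT : ∃ a b : T, a * b ≠ b * a := by
    by_contra! h
    exact hTns (Group.isSolvable_of_comm h)
  -- a Sylow subgroup of `T` is the trace of the one containing it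
  have htrace : ∀ (P : Sylow 2 T) (S : Sylow 2 G), (P : Subgroup T).map T.subtype ≤ (S : Subgroup G) →
      (S : Subgroup G).subgroupOf T = (P : Subgroup T) := fun P S h =>
    P.3 (S.2.comap_of_injective T.subtype T.subtype_injective) (Subgroup.map_le_iff_le_comap.1 h)
  have hTIT : CIT.TISylow T := by
    intro P P' hne
    obtain ⟨S, hS⟩ := (P.2.map T.subtype).exists_le_sylow
    obtain ⟨S', hS'⟩ := (P'.2.map T.subtype).exists_le_sylow
    have e : S = S' := hTI S S' fun hb => by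
      obtain ⟨⟨a, ha⟩, ha1⟩ := Subgroup.ne_bot_iff_exists_ne_one.1 hne
      have : (a : G) ∈ (S : Subgroup G) ⊓ S' := ⟨hS ⟨a, ha.1, rfl⟩, hS' ⟨a, ha.2, rfl⟩⟩
      rw [hb, Subgroup.mem_bot] at this
      exact ha1 (Subtype.ext (Subtype.ext this))
    exact Sylow.ext ((htrace P S hS).symm.trans (e ▸ htrace P' S' hS'))
  obtain ⟨P⟩ : Nonempty (Sylow 2 T) := inferInstance
  obtain ⟨S, hS⟩ := (P.2.map T.subtype).exists_le_sylow
  obtain ⟨H, hL⟩ := exists_local hF hns S
  have hcl : ∀ a ∈ H.subgroupOf T, a ≠ 1 → Subgroup.centralizer ({a} : Set T) ≤ H.subgroupOf T := by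
    intro a ha ha1 x hx
    exact Subgroup.mem_subgroupOf.2 (hL.cent a (Subgroup.mem_subgroupOf.1 ha) (fun e => ha1 (Subtype.ext e))
      (Subgroup.mem_centralizer_singleton_iff.2 (congrArg Subtype.val (Subgroup.mem_centralizer_singleton_iff.1 hx))))
  have hPH : (P : Subgroup T) ≤ H.subgroupOf T := fun a ha =>
    Subgroup.mem_subgroupOf.2 (hL.le (hS ⟨a, ha, rfl⟩))
  haveI := hL.nil
  have hnilT : Group.IsNilpotent (H.subgroupOf T) := by
    haveI : Group.IsNilpotent ((H.subgroupOf T).map T.subtype) :=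
      Cores.isNilpotent_of_le hL.nil (by rintro _ ⟨a, ha, rfl⟩; exact Subgroup.mem_subgroupOf.1 ha)
    exact Group.nilpotent_of_mulEquiv
      ((H.subgroupOf T).equivMapOfInjective T.subtype T.subtype_injective).symm
  have hHT := isPGroup_inf hTns P (H.subgroupOf T) hnilT hPH hcl
  have hHTP : H.subgroupOf T = (P : Subgroup T) := P.3 hHT hPH
  have hcitT : CIT.IsCIT T := by
    intro t ht
    obtain ⟨P', hP'⟩ := (CIT.isPGroup_zpowers_of_orderOf ht).exists_le_sylow
    obtain ⟨g, hg⟩ := MulAction.exists_smul_eq T P P'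
    have htP : g⁻¹ * t * g ∈ (P : Subgroup T) := by
      have h1 : t ∈ ((g • P : Sylow 2 T) : Subgroup T) := hg.symm ▸ hP' (Subgroup.mem_zpowers t)
      rw [Sylow.coe_subgroup_smul] at h1
      exact Frobenius.mem_conj_smul.1 h1
    have hle : (Subgroup.centralizer ({t} : Set T)).map (MulAut.conj g⁻¹).toMonoidHom ≤ H.subgroupOf T := by
      rintro _ ⟨x, hx, rfl⟩
      refine hcl _ (hPH htP) (fun e => Involutions.ne_one ht (by
        calc t = g * (g⁻¹ * t * g) * g⁻¹ := by group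
          _ = 1 := by rw [e]; group)) (Subgroup.mem_centralizer_singleton_iff.2 ?_)
      show g⁻¹ * x * g⁻¹⁻¹ * (g⁻¹ * t * g) = g⁻¹ * t * g * (g⁻¹ * x * g⁻¹⁻¹)
      calc g⁻¹ * x * g⁻¹⁻¹ * (g⁻¹ * t * g) = g⁻¹ * (x * t) * g := by group
        _ = g⁻¹ * (t * x) * g := by rw [Subgroup.mem_centralizer_singleton_iff.1 hx]
        _ = g⁻¹ * t * g * (g⁻¹ * x * g⁻¹⁻¹) := by group
    exact (hHT.to_le hle).of_equiv
      ((Subgroup.centralizer ({t} : Set T)).equivMapOfInjective _ (MulAut.conj g⁻¹).injective).symm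
  obtain ⟨z, hzP, -, hcfg⟩ := hTIT.tiConfig hcitT (CIT.pCore_eq_bot_of_simple hnaT) hT2 P
  -- an element of odd prime order in the normaliser
  have hm : CIT.TIConfig.m (Subgroup.normalizer ((P : Subgroup T) : Set T)) (P : Subgroup T) ≠ 1 := by
    intro hm1
    obtain ⟨N, hN, hodd, hne⟩ := hTIT.exists_complement hcitT (CIT.pCore_eq_bot_of_simple hnaT) hT2 P hm1
    rw [hN.eq_bot_or_eq_top.resolve_left hne, Subgroup.card_top] at hodd
    exact Nat.not_even_iff_odd.2 hodd (even_iff_two_dvd.2 hT2)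
  obtain ⟨p, hp, hpm⟩ := Nat.exists_prime_and_dvd hm
  haveI : Fact p.Prime := ⟨hp⟩
  obtain ⟨⟨e, heN⟩, he⟩ := exists_prime_orderOf_dvd_card'
    (G := Subgroup.normalizer ((P : Subgroup T) : Set T)) p (by rw [hcfg.card_M]; exact Dvd.dvd.mul_left hpm _)
  rw [Subgroup.orderOf_mk] at he
  have hp2 : p ≠ 2 := fun e2 => hp.ne_one (Nat.eq_one_of_dvd_coprimes hcfg.cop
    (e2 ▸ P.dvd_card_of_dvd_card hT2) hpm)
  have heP : e ∉ (P : Subgroup T) := fun h => by
    obtain ⟨k, hk⟩ := IsPGroup.iff_orderOf.1 P.2 ⟨e, h⟩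
    rw [Subgroup.orderOf_mk, he] at hk
    exact hp2 ((Nat.prime_dvd_prime_iff_eq hp Nat.prime_two).1 (hp.dvd_of_dvd_pow (dvd_of_eq hk)))
  have hzS : (z : G) ∈ (S : Subgroup G) := hS ⟨z, hzP, rfl⟩
  have hz1 : (z : G) ≠ 1 := fun h => Involutions.ne_one hcfg.z_ord (Subtype.ext h)
  have hzT : orderOf (z : G) = 2 := by rw [Subgroup.orderOf_coe, hcfg.z_ord]
  have hnormS : ∀ g : G, g * (z : G) * g⁻¹ ∈ (S : Subgroup G) →
      g ∈ Subgroup.normalizer ((S : Subgroup G) : Set G) := by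
    intro g hg
    refine (CIT.smul_eq_iff_mem_normalizer S).1 (hTI _ _ fun hb => hz1 ?_).symm.symm
    have : g * (z : G) * g⁻¹ ∈ ((g • S : Sylow 2 G) : Subgroup G) ⊓ S := by
      refine ⟨?_, hg⟩
      rw [Sylow.coe_subgroup_smul]
      exact ⟨_, hzS, rfl⟩
    rw [hb, Subgroup.mem_bot] at this
    exact conj_eq_one_iff.1 this
  have heS : (e : G) ∈ Subgroup.normalizer ((S : Subgroup G) : Set G) := by
    refine hnormS _ (hS ⟨e * z * e⁻¹, (Subgroup.mem_normalizer_iff.1 heN z).1 hzP, rfl⟩)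
  have heH : (e : G) ∉ H := fun h => heP (hHTP ▸ Subgroup.mem_subgroupOf.2 h)
  -- `H` is a 2-group
  have hodd : ∀ f ∈ H, Odd (orderOf f) → f = 1 := by
    intro f hf hfo
    by_contra hf1
    refine heH (hL.cent f hf hf1 (Subgroup.mem_centralizer_singleton_iff.2 ?_))
    have h1 : (e : G) * f * (e : G)⁻¹ ∈ H := (Subgroup.mem_normalizer_iff.1 (hL.normal heS) f).1 hf
    set s := (e : G) * f * (e : G)⁻¹ * f⁻¹ with hsdef
    have hsH : s ∈ H := H.mul_mem h1 (H.inv_mem hf)
    have hsT : s ∈ T := by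
      rw [hsdef, show (e : G) * f * (e : G)⁻¹ * f⁻¹ = (e : G) * (f * (e : G)⁻¹ * f⁻¹) by group]
      exact T.mul_mem e.2 (hTn.conj_mem _ (T.inv_mem e.2) f)
    obtain ⟨k, hk⟩ := IsPGroup.iff_orderOf.1 hHT ⟨⟨s, hsT⟩, Subgroup.mem_subgroupOf.2 hsH⟩
    rw [Subgroup.orderOf_mk, Subgroup.orderOf_mk] at hk
    have hcop : (orderOf s).Coprime (orderOf f) := by
      rw [hk]
      exact Nat.Coprime.pow_left k (Nat.coprime_two_left.2 hfo)
    have hc : Commute s f := BGTypes.commute_of_mem_nilpotent hL.nil hsH hf hcop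
    have h2 : ((e : G) * f * (e : G)⁻¹) ^ orderOf f = 1 := by
      rw [conj_pow, pow_orderOf_eq_one, mul_one, mul_inv_cancel]
    rw [show (e : G) * f * (e : G)⁻¹ = s * f by rw [hsdef]; group, hc.mul_pow, pow_orderOf_eq_one,
      mul_one] at h2
    have hs1 : s = 1 := orderOf_eq_one_iff.1 (Nat.eq_one_of_dvd_coprimes hcop dvd_rfl
      (orderOf_dvd_of_pow_eq_one h2))
    rw [hsdef, mul_inv_eq_one, mul_inv_eq_iff_eq_mul] at hs1
    exact hs1
  have hH2 : IsPGroup 2 H := by
    rw [IsPGroup.iff_orderOf]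
    intro a
    obtain ⟨k, m, hm', e'⟩ := Nat.exists_eq_two_pow_mul_odd (orderOf_pos (a : G)).ne'
    refine ⟨k, ?_⟩
    have hm1 : ((a : G) ^ 2 ^ k) = 1 := hodd _ (H.pow_mem a.2 _) (by
      rw [orderOf_pow' _ (pow_ne_zero k two_ne_zero), e', Nat.gcd_mul_right_left,
        Nat.mul_div_cancel_left _ (Nat.two_pow_pos k)]
      exact hm')
    rw [← Subgroup.orderOf_coe]
    exact Nat.dvd_antisymm (orderOf_dvd_of_pow_eq_one hm1) (e' ▸ dvd_mul_right _ _)
  have hHS : H = (S : Subgroup G) := S.3 hH2 hL.le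
  -- `G = T S`
  have hTS : ∀ g : G, ∃ u : T, (u : G)⁻¹ * g ∈ (S : Subgroup G) := by
    intro g
    have hgz : g * (z : G) * g⁻¹ ∈ T := hTn.conj_mem _ z.2 g
    obtain ⟨c, hc⟩ := isConj_iff.1 (hcfg.isConj_z (v := ⟨_, hgz⟩)
      (by rw [← Subgroup.orderOf_coe]; show orderOf (g * (z : G) * g⁻¹) = 2
          rw [Involutions.orderOf_conj, hzT]))
    have hc' : (c : G) * z * (c : G)⁻¹ = g * (z : G) * g⁻¹ := congrArg Subtype.val hc
    refine ⟨c, hHS ▸ hL.cent (z : G) (hL.le hzS) hz1 (Subgroup.mem_centralizer_singleton_iff.2 ?_)⟩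
    calc (c : G)⁻¹ * g * z = (c : G)⁻¹ * (g * (z : G) * g⁻¹) * g := by group
      _ = (c : G)⁻¹ * ((c : G) * z * (c : G)⁻¹) * g := by rw [hc']
      _ = z * ((c : G)⁻¹ * g) := by group
  -- `S ≤ T`
  have hST : (S : Subgroup G) ≤ T := by
    intro s hs
    by_contra hsT
    let Y := {a : G // a ∈ (S : Subgroup G) ∧ s⁻¹ * a ∈ T}
    let Z := Subgroup.zpowers (e : G)
    have hmem : ∀ a : Z, ∀ y : Y, (a : G) * y * (a : G)⁻¹ ∈ (S : Subgroup G) ∧
        s⁻¹ * ((a : G) * y * (a : G)⁻¹) ∈ T := by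
      intro a y
      have haS : (a : G) ∈ Subgroup.normalizer ((S : Subgroup G) : Set G) := Subgroup.zpowers_le.2 heS a.2
      have haT : (a : G) ∈ T := Subgroup.zpowers_le.2 e.2 a.2
      refine ⟨(Subgroup.mem_normalizer_iff.1 haS _).1 y.2.1, ?_⟩
      rw [show s⁻¹ * ((a : G) * y * (a : G)⁻¹) = (s⁻¹ * (a : G) * s) * ((s⁻¹ * y) * (a : G)⁻¹) by group]
      exact T.mul_mem (by simpa using hTn.conj_mem _ haT s⁻¹) (T.mul_mem y.2.2 (T.inv_mem haT))
    letI : MulAction Z Y :=
      { smul := fun a y => ⟨(a : G) * y * (a : G)⁻¹, hmem a y⟩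
        one_smul := fun y => Subtype.ext (by show ((1 : Z) : G) * y * ((1 : Z) : G)⁻¹ = y; simp)
        mul_smul := fun a b y => Subtype.ext (by
          show ((a * b : Z) : G) * y * ((a * b : Z) : G)⁻¹ = a * (b * y * (b : G)⁻¹) * (a : G)⁻¹
          simp [mul_assoc]) }
    have hZ : IsPGroup p Z :=
      IsPGroup.of_card (n := 1) (by rw [pow_one, Nat.card_zpowers, Subgroup.orderOf_coe, he])
    have hY : Nat.card Y = Nat.card ↥((S : Subgroup G) ⊓ T) := Nat.card_congr
      { toFun := fun a => ⟨s⁻¹ * a, ⟨Subgroup.mul_mem _ (Subgroup.inv_mem _ hs) a.2.1, a.2.2⟩⟩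
        invFun := fun a => ⟨s * a, Subgroup.mul_mem _ hs a.2.1, by simpa using a.2.2⟩
        left_inv := fun a => Subtype.ext (by simp)
        right_inv := fun a => Subtype.ext (by simp) }
    have hnd : ¬ p ∣ Nat.card Y := by
      obtain ⟨k, hk⟩ := IsPGroup.iff_card.1 (S.2.to_le (inf_le_left : (S : Subgroup G) ⊓ T ≤ S))
      rw [hY, hk]
      exact fun h => hp2 ((Nat.prime_dvd_prime_iff_eq hp Nat.prime_two).1 (hp.dvd_of_dvd_pow h))
    obtain ⟨a, ha⟩ := hZ.nonempty_fixed_point_of_prime_not_dvd_card Y hnd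
    have hc : (e : G) * a * (e : G)⁻¹ = a := congrArg Subtype.val (ha ⟨e, Subgroup.mem_zpowers _⟩)
    refine heH (hL.cent a (hL.le a.2.1) (fun h1 => hsT ?_)
      (Subgroup.mem_centralizer_singleton_iff.2 (mul_inv_eq_iff_eq_mul.1 hc)))
    have := a.2.2
    rw [h1, mul_one] at this
    exact inv_mem_iff.1 this
  have htop : T = ⊤ := by
    rw [Subgroup.eq_top_iff']
    intro g
    obtain ⟨u, hu⟩ := hTS g
    simpa using T.mul_mem u.2 (hST hu)
  subst htop
  exact ⟨Subgroup.topEquiv.isSimpleGroup_congr.1 hTs, hcitT.of_equiv Subgroup.topEquiv⟩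

end CfsgLib.FrobSystem
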